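import Cfsg.Agent.H934.E83.Vec
import Cfsg.Agent.H934.E83.Hom
import Cfsg.Agent.H238.E8.Frame

/-!
# The action of `SL₅(K) × SL₅(K)` on the Lie algebra of `E₈` (S5925, box A, helper934)

* `Ok r s` : decidable properties of a table of roots `r : Fin 5 → Fin 5 → ℕ` and signs `s`;
* `io r s : Matrix (Fin 5) (Fin 5) K →ₗ[K] (chevE8.Idx → K)`, `E_ij ↦ s i j • e_(r i j)`;
* `act` : `φ A *ᵥ io M = io (A M A⁻¹)` for `trace M = 0`, for every `φ` with `φ (t_ij(c)) = x_(r i j)(s i j c)`;
* `act_cross` : `φ A *ᵥ io' M = io' M` for tables orthogonal to each other;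
* `io1`, `io2`, `act11`, `act12`, `act21`, `act22`, injectivity.
-/

set_option autoImplicit false

namespace Cfsg.Agent.H934.E83

open Cfsg Cfsg.Lie Cfsg.Agent.ChevalleyStructure Cfsg.Agent.ChevalleyStructure.Columns Cfsg.Agent.ChevalleyStructure.Elts
open Matrix

universe u

/-! ### Linear maps on matrices -/

section Lin

variable {K : Type*} [Field K] {V : Type*} [AddCommGroup V] [Module K V]

theorem lin_ext {f g : Matrix (Fin 5) (Fin 5) K →ₗ[K] V} (h1 : ∀ i j, i ≠ j → f (single i j 1) = g (single i j 1))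
    (h2 : ∀ i : Fin 5, f (single i i 1 - single 0 0 1) = g (single i i 1 - single 0 0 1))
    (M : Matrix (Fin 5) (Fin 5) K) (hM : M.trace = 0) : f M = g M := by
  have key : ∀ d : Matrix (Fin 5) (Fin 5) K →ₗ[K] V, (∀ i j, i ≠ j → d (single i j 1) = 0) →
      (∀ i : Fin 5, d (single i i 1) = d (single 0 0 1)) → d M = M.trace • d (single 0 0 1) := by
    intro d hd1 hd2
    have e1 : M = ∑ i, ∑ j, M i j • single i j (1 : K) := by
      conv_lhs => rw [matrix_eq_sum_single M]
      refine Finset.sum_congr rfl fun i _ => Finset.sum_congr rfl fun j _ => ?_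
      rw [smul_single, smul_eq_mul, mul_one]
    conv_lhs => rw [e1]
    rw [map_sum, Matrix.trace, Finset.sum_smul]
    refine Finset.sum_congr rfl fun i _ => ?_
    rw [map_sum, Finset.sum_eq_single i]
    · rw [map_smul, hd2 i]
      rfl
    · intro j _ hj
      rw [map_smul, hd1 i j (Ne.symm hj), smul_zero]
    · intro h
      exact absurd (Finset.mem_univ _) h
  have h3 := key (f - g) (fun i j hij => by rw [LinearMap.sub_apply, h1 i j hij, sub_self]) (fun i => by
    have := h2 i
    rw [map_sub, map_sub] at this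
    rw [LinearMap.sub_apply, LinearMap.sub_apply]
    rw [sub_eq_sub_iff_sub_eq_sub] at this
    exact this)
  rw [hM, zero_smul, LinearMap.sub_apply, sub_eq_zero] at h3
  exact h3

theorem conj_tv (a b : Fin 5) (c : K) (M : Matrix (Fin 5) (Fin 5) K) :
    Matrix.transvection a b c * M * Matrix.transvection a b (-c) =
      M + single a b c * M - M * single a b c - single a b c * M * single a b c := by
  have h : (single a b (-c) : Matrix (Fin 5) (Fin 5) K) = - single a b c := by
    rw [← Matrix.single_neg]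
  rw [Matrix.transvection, Matrix.transvection, h]
  noncomm_ring

end Lin

/-! ### Tables -/

/-- the table of roots and signs is that of an `SL₅` -/
structure Ok (r : Fin 5 → Fin 5 → ℕ) (s : Fin 5 → Fin 5 → ℤ) : Prop where
  lt : ∀ a b, r a b < 240
  neg : ∀ a b, a ≠ b → chevE8.negIdx.getD (r a b) 0 = r b a
  inj : ∀ a b, a ≠ b → ∀ i j, i ≠ j → r a b = r i j → a = i ∧ b = j
  sq : ∀ a b, s a b * s a b = 1
  sym : ∀ a b, s b a = s a b
  srt : ∀ a b, sortedFrom 0 (row chevE8 (r a b)) = true
  ch1 : ∀ a b j, a ≠ b → j ≠ a → j ≠ b → chevE8.chainEntry (r a b) (r b j) = [(r a j, s a b * s b j * s a j)]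
  ch2 : ∀ a b i, a ≠ b → i ≠ a → i ≠ b → chevE8.chainEntry (r a b) (r i a) = [(r i b, -(s a b * s i a * s i b))]
  ch0 : ∀ a b, a ≠ b → ∀ i j, i ≠ j → i ≠ b → j ≠ a → chevE8.chainEntry (r a b) (r i j) = []
  cz : ∀ a b, a ≠ b → ∀ i j, i ≠ j → cz (r i j) (r a b) =
    (if a = i then 1 else 0) - (if a = j then 1 else 0) - (if b = i then 1 else 0) + (if b = j then 1 else 0)
  cor : ∀ a b, a ≠ b → ∀ k : Fin 8, cor chevE8 (r a b) k.val =
    ∑ i : Fin 4, ((if a ≤ i.castSucc then 1 else 0) - (if b ≤ i.castSucc then 1 else 0)) *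
      cor chevE8 (r i.castSucc i.succ) k.val

/-- two tables commute -/
structure Cross (r r' : Fin 5 → Fin 5 → ℕ) : Prop where
  ne : ∀ a b, a ≠ b → ∀ i j, i ≠ j → r' i j ≠ r a b
  ne' : ∀ a b, a ≠ b → ∀ i j, i ≠ j → chevE8.negIdx.getD (r a b) 0 ≠ r' i j
  ch : ∀ a b, a ≠ b → ∀ i j, i ≠ j → chevE8.chainEntry (r a b) (r' i j) = []
  cz : ∀ a b, a ≠ b → ∀ i j, i ≠ j → cz (r' i j) (r a b) = 0

theorem ok1 : Ok r1 s1 where
  lt := by decide +kernel
  neg := by decide +kernel
  inj := by decide +kernel
  sq := by decide +kernel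
  sym := by decide +kernel
  srt := by decide +kernel
  ch1 := by decide +kernel
  ch2 := by decide +kernel
  ch0 := by decide +kernel
  cz := by decide +kernel
  cor := by decide +kernel

theorem ok2 : Ok r2 s2 where
  lt := by decide +kernel
  neg := by decide +kernel
  inj := by decide +kernel
  sq := by decide +kernel
  sym := by decide +kernel
  srt := by decide +kernel
  ch1 := by decide +kernel
  ch2 := by decide +kernel
  ch0 := by decide +kernel
  cz := by decide +kernel
  cor := by decide +kernel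

theorem cross12 : Cross r1 r2 where
  ne := by decide +kernel
  ne' := by decide +kernel
  ch := by decide +kernel
  cz := by decide +kernel

theorem cross21 : Cross r2 r1 where
  ne := by decide +kernel
  ne' := by decide +kernel
  ch := by decide +kernel
  cz := by decide +kernel

/-! ### The embedding of the matrices into the adjoint module -/

section Io

variable (K : Type*) [Field K] (r : Fin 5 → Fin 5 → ℕ) (s : Fin 5 → Fin 5 → ℤ)

/-- `E_ij ↦ s i j • e_(r i j)`, diagonal `d ↦ ∑_{i<4} (d_0 + … + d_i) • h_(r i (i+1))` -/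
def io : Matrix (Fin 5) (Fin 5) K →ₗ[K] (chevE8.Idx → K) where
  toFun M := (∑ i, ∑ j, (if i = j then 0 else M i j * (s i j : K)) • er K (r i j)) +
    ∑ i : Fin 4, (∑ j : Fin 5, if j ≤ i.castSucc then M j j else 0) • hr K (r i.castSucc i.succ)
  map_add' M N := by
    have e1 : ∀ i j : Fin 5, (if i = j then 0 else (M + N) i j * (s i j : K)) =
        (if i = j then 0 else M i j * (s i j : K)) + (if i = j then 0 else N i j * (s i j : K)) := by
      intro i j
      split_ifs
      · rw [add_zero]
      · rw [Matrix.add_apply, add_mul]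
    have e2 : ∀ i j : Fin 5, (if j ≤ i then (M + N) j j else 0) =
        (if j ≤ i then M j j else 0) + (if j ≤ i then N j j else 0) := by
      intro i j
      split_ifs
      · rfl
      · rw [add_zero]
    simp_rw [e1, e2, add_smul, Finset.sum_add_distrib, add_smul, Finset.sum_add_distrib]
    abel
  map_smul' c M := by
    have e1 : ∀ i j : Fin 5, (if i = j then 0 else (c • M) i j * (s i j : K)) =
        c * (if i = j then 0 else M i j * (s i j : K)) := by
      intro i j
      split_ifs
      · rw [mul_zero]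
      · rw [Matrix.smul_apply, smul_eq_mul, mul_assoc]
    have e2 : ∀ i j : Fin 5, (if j ≤ i then (c • M) j j else 0) = c * (if j ≤ i then M j j else 0) := by
      intro i j
      split_ifs
      · rfl
      · rw [mul_zero]
    simp_rw [e1, e2, ← Finset.mul_sum, mul_smul, ← Finset.smul_sum, ← smul_add]
    rfl

variable {K r s}

theorem io_apply (M : Matrix (Fin 5) (Fin 5) K) : io K r s M =
    (∑ i, ∑ j, (if i = j then 0 else M i j * (s i j : K)) • er K (r i j)) +
    ∑ i : Fin 4, (∑ j : Fin 5, if j ≤ i.castSucc then M j j else 0) • hr K (r i.castSucc i.succ) := rfl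

theorem io_single {i j : Fin 5} (hij : i ≠ j) (c : K) : io K r s (single i j c) = (c * (s i j : K)) • er K (r i j) := by
  have h1 : ∑ i' : Fin 4, (∑ j' : Fin 5, if j' ≤ i'.castSucc then (single i j c : Matrix (Fin 5) (Fin 5) K) j' j' else 0) •
      hr K (r i'.castSucc i'.succ) = 0 := by
    refine Finset.sum_eq_zero fun i' _ => ?_
    rw [Finset.sum_eq_zero, zero_smul]
    intro j' _
    rw [Matrix.single_apply, if_neg (fun h : i = j' ∧ j = j' => hij (h.1.trans h.2.symm)), ite_self]
  rw [io_apply, h1, add_zero, Finset.sum_eq_single i]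
  · rw [Finset.sum_eq_single j]
    · rw [if_neg hij, Matrix.single_apply_same]
    · intro j' _ hj'
      rw [Matrix.single_apply_of_col_ne _ _ (Ne.symm hj'), zero_mul, ite_self, zero_smul]
    · intro h
      exact absurd (Finset.mem_univ _) h
  · intro i' _ hi'
    refine Finset.sum_eq_zero fun j' _ => ?_
    rw [Matrix.single_apply_of_row_ne (Ne.symm hi'), zero_mul, ite_self, zero_smul]
  · intro h
    exact absurd (Finset.mem_univ _) h

theorem io_diag (a : Fin 5) (c : K) : io K r s (single a a c) =
    ∑ i : Fin 4, (if a ≤ i.castSucc then c else 0) • hr K (r i.castSucc i.succ) := by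
  have h1 : ∑ i, ∑ j, (if i = j then 0 else (single a a c : Matrix (Fin 5) (Fin 5) K) i j * (s i j : K)) • er K (r i j) = 0 := by
    refine Finset.sum_eq_zero fun i _ => Finset.sum_eq_zero fun j _ => ?_
    split_ifs with h
    · rw [zero_smul]
    · rw [Matrix.single_apply, if_neg (fun h' : a = i ∧ a = j => h (h'.1.symm.trans h'.2)), zero_mul, zero_smul]
  rw [io_apply, h1, zero_add]
  refine Finset.sum_congr rfl fun i _ => ?_
  rw [Finset.sum_eq_single a]
  · rw [Matrix.single_apply_same]
  · intro j _ hj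
    rw [Matrix.single_apply, if_neg (fun h : a = j ∧ a = j => hj h.1.symm), ite_self]
  · intro h
    exact absurd (Finset.mem_univ _) h

theorem hr_lin (hO : Ok r s) {a b : Fin 5} (hab : a ≠ b) : hr K (r a b) =
    ∑ i : Fin 4, (((if a ≤ i.castSucc then 1 else 0) : K) - (if b ≤ i.castSucc then 1 else 0)) •
      hr K (r i.castSucc i.succ) := by
  funext v
  rw [Finset.sum_apply]
  rcases v with k | w
  · have h1 := hO.cor a b hab k
    rw [hr_inl]
    refine (congrArg (Int.cast : ℤ → K) h1).trans ?_
    rw [Int.cast_sum]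
    refine Finset.sum_congr rfl fun i _ => ?_
    have e : ∀ (p : Prop) [Decidable p], (((if p then 1 else 0 : ℤ)) : K) = if p then 1 else 0 := by
      intro p _
      split_ifs
      · exact Int.cast_one
      · exact Int.cast_zero
    rw [Pi.smul_apply, hr_inl, smul_eq_mul, Int.cast_mul, Int.cast_sub, e, e]
  · rw [hr_inr]
    symm
    refine Finset.sum_eq_zero fun i _ => ?_
    rw [Pi.smul_apply, hr_inr, smul_zero]

theorem io_diff (hO : Ok r s) {a b : Fin 5} (hab : a ≠ b) (c : K) :
    io K r s (single a a c - single b b c) = c • hr K (r a b) := by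
  rw [map_sub, io_diag, io_diag, hr_lin hO hab, Finset.smul_sum, ← Finset.sum_sub_distrib]
  refine Finset.sum_congr rfl fun i _ => ?_
  rw [← sub_smul, smul_smul]
  congr 1
  split_ifs <;> ring

end Io

/-! ### The action -/

section Act

variable {K : Type*} [Field K] {r r' : Fin 5 → Fin 5 → ℕ} {s s' : Fin 5 → Fin 5 → ℤ}

theorem sgK (hO : Ok r s) (a b : Fin 5) : (s a b : K) * (s a b : K) = 1 := by
  rw [← Int.cast_mul, hO.sq, Int.cast_one]

theorem act_tv1 (hO : Ok r s) {a b : Fin 5} (hab : a ≠ b) (c : K) {i j : Fin 5} (hij : i ≠ j) :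
    ((xG inE8 (r a b) ((s a b : K) * c) : GL chevE8.Idx K) : Matrix chevE8.Idx chevE8.Idx K) *ᵥ io K r s (single i j 1) =
      io K r s (Matrix.transvection a b c * single i j 1 * Matrix.transvection a b (-c)) := by
  have hn : ∀ i j, i ≠ j → ¬ (i = b ∧ j = a) → chevE8.negIdx.getD (r a b) 0 ≠ r i j := by
    intro i j hij h h1
    rw [hO.neg a b hab] at h1
    obtain ⟨h2, h3⟩ := hO.inj b a (Ne.symm hab) i j hij h1
    exact h ⟨h2.symm, h3.symm⟩
  have hs : ∀ i j, i ≠ j → ¬ (i = a ∧ j = b) → r i j ≠ r a b := by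
    intro i j hij h h1
    exact h (hO.inj i j hij a b hab h1)
  rw [io_single hij, one_mul, Matrix.mulVec_smul, conj_tv]
  by_cases hbi : b = i
  · subst hbi
    by_cases hja : j = a
    · subst hja
      rw [x_neg (hO.lt _ _) (hO.lt _ _) (fun h => hab (hO.inj b j hij j b hab h).1.symm) (hO.neg j b hab)]
      rw [Matrix.single_mul_single_same, Matrix.single_mul_single_same, Matrix.single_mul_single_same, mul_one, one_mul]
      have e0 : (single b j 1 + single j j c - single b b c - single j b (c * c) : Matrix (Fin 5) (Fin 5) K) =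
        single b j 1 + (single j j c - single b b c) - single j b (c * c) := by abel
      rw [e0, map_sub (io K r s) (single b j 1 + (single j j c - single b b c)), map_add, io_diff hO hab, io_single hij,
        io_single hab, one_mul, hO.sym j b]
      have e := sgK (K := K) hO j b
      rw [smul_sub, smul_add, smul_smul, smul_smul]
      rw [show (s j b : K) * ((s j b : K) * c) = c by rw [← mul_assoc, e, one_mul]]
      rw [show (s j b : K) * ((s j b : K) * c) ^ 2 = c * c * (s j b : K) by
        linear_combination (s j b : K) * c ^ 2 * e]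
    · rw [x_one (hO.lt _ _) (hO.lt _ _) (hs b j hij (fun h => hab h.1.symm)) (hn b j hij (fun h => hja h.2)) (hO.srt _ _)
        (hO.ch1 a b j hab hja (Ne.symm hij))]
      rw [Matrix.single_mul_single_same, Matrix.single_mul_single_of_ne _ _ _ _ hja,
        Matrix.single_mul_single_of_ne _ _ _ _ hja, sub_zero, sub_zero, map_add, io_single hij, io_single (Ne.symm hja),
        one_mul, mul_one, smul_add, smul_smul]
      have e1 := sgK (K := K) hO a b
      have e2 := sgK (K := K) hO b j
      rw [show (s b j : K) * (((s a b * s b j * s a j : ℤ) : K) * ((s a b : K) * c)) = c * (s a j : K) by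
        push_cast
        linear_combination (s b j : K) ^ 2 * (s a j : K) * c * e1 + (s a j : K) * c * e2]
  · by_cases hja : j = a
    · subst hja
      rw [x_one (hO.lt _ _) (hO.lt _ _) (hs i j hij (fun h => hij h.1)) (hn i j hij (fun h => hbi h.1.symm)) (hO.srt _ _)
        (hO.ch2 j b i hab hij (Ne.symm hbi))]
      rw [Matrix.single_mul_single_of_ne _ _ _ _ hbi, Matrix.single_mul_single_same, zero_mul, sub_zero, add_zero,
        map_sub, io_single hij, io_single (Ne.symm hbi), one_mul, one_mul, smul_add, smul_smul]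
      have e1 := sgK (K := K) hO j b
      have e2 := sgK (K := K) hO i j
      rw [show (s i j : K) * (((-(s j b * s i j * s i b) : ℤ) : K) * ((s j b : K) * c)) = -(c * (s i b : K)) by
        push_cast
        linear_combination -(s i j : K) ^ 2 * (s i b : K) * c * e1 - (s i b : K) * c * e2]
      rw [neg_smul, sub_eq_add_neg]
    · rw [Matrix.single_mul_single_of_ne _ _ _ _ hbi, Matrix.single_mul_single_of_ne _ _ _ _ hja, zero_mul, sub_zero, add_zero,
        sub_zero, io_single hij, one_mul]
      congr 1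
      by_cases h : i = a ∧ j = b
      · obtain ⟨rfl, rfl⟩ := h
        exact x_self (hO.lt _ _) _
      · exact x_zero (hO.lt _ _) (hO.lt _ _) (hs i j hij h) (hn i j hij (fun h => hbi h.1.symm)) (hO.srt _ _)
          (hO.ch0 a b hab i j hij (Ne.symm hbi) hja) _

theorem act_tv2 (hO : Ok r s) {a b : Fin 5} (hab : a ≠ b) (c : K) {i j : Fin 5} (hij : i ≠ j) :
    ((xG inE8 (r a b) ((s a b : K) * c) : GL chevE8.Idx K) : Matrix chevE8.Idx chevE8.Idx K) *ᵥ
      io K r s (single i i 1 - single j j 1) =
      io K r s (Matrix.transvection a b c * (single i i 1 - single j j 1) * Matrix.transvection a b (-c)) := by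
  have h1 : ∀ i : Fin 5, single a b c * single i i (1 : K) = single a b (if b = i then c else 0) := by
    intro i
    split_ifs with h
    · subst h
      rw [Matrix.single_mul_single_same, mul_one]
    · rw [Matrix.single_mul_single_of_ne _ _ _ _ h, Matrix.single_zero]
  have h2 : ∀ i : Fin 5, single i i (1 : K) * single a b c = single a b (if a = i then c else 0) := by
    intro i
    split_ifs with h
    · subst h
      rw [Matrix.single_mul_single_same, one_mul]
    · rw [Matrix.single_mul_single_of_ne _ _ _ _ (Ne.symm h), Matrix.single_zero]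
  have h3 : ∀ x : K, (single a b x : Matrix (Fin 5) (Fin 5) K) * single a b c = 0 := fun x =>
    Matrix.single_mul_single_of_ne _ _ _ _ (Ne.symm hab) c
  have hd := io_diff hO hij (1 : K)
  rw [map_sub, one_smul] at hd
  rw [conj_tv, mul_sub, sub_mul, h1, h1, h2, h2, sub_mul, h3, h3, sub_zero, sub_zero]
  simp only [map_sub, map_add]
  rw [hd, io_single hab, io_single hab, io_single hab, io_single hab, x_hr _ (hO.lt _ _),
    hO.cz a b hab i j hij, ← sub_smul, ← sub_smul, add_sub_assoc, ← sub_smul, sub_eq_add_neg, ← neg_smul]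
  congr 2
  have e : ∀ (p : Prop) [Decidable p], (((if p then 1 else 0 : ℤ)) : K) = if p then 1 else 0 := by
    intro p _
    split_ifs
    · exact Int.cast_one
    · exact Int.cast_zero
  rw [Int.cast_add, Int.cast_sub, Int.cast_sub, e, e, e, e]
  have e' : ∀ (p : Prop) [Decidable p], (if p then c else 0) = (if p then 1 else 0) * c := by
    intro p _
    split_ifs
    · rw [one_mul]
    · rw [zero_mul]
  rw [e', e', e', e']
  ring

theorem act_tv (hO : Ok r s) {a b : Fin 5} (hab : a ≠ b) (c : K) (M : Matrix (Fin 5) (Fin 5) K) (hM : M.trace = 0) :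
    ((xG inE8 (r a b) ((s a b : K) * c) : GL chevE8.Idx K) : Matrix chevE8.Idx chevE8.Idx K) *ᵥ io K r s M =
      io K r s (Matrix.transvection a b c * M * Matrix.transvection a b (-c)) := by
  refine lin_ext (f := (((xG inE8 (r a b) ((s a b : K) * c) : GL chevE8.Idx K) : Matrix chevE8.Idx chevE8.Idx K)).mulVecLin ∘ₗ
    io K r s) (g := io K r s ∘ₗ ((LinearMap.mulRight K (Matrix.transvection a b (-c))) ∘ₗ
      (LinearMap.mulLeft K (Matrix.transvection a b c)))) ?_ ?_ M hM
  · intro i j hij
    exact act_tv1 hO hab c hij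
  · intro i
    by_cases h : i = 0
    · rw [h, sub_self, map_zero, map_zero]
    · exact act_tv2 hO hab c h

theorem tv_inv {a b : Fin 5} (hab : a ≠ b) (c : K) :
    ((SpecialLinearGroup.transvection hab c)⁻¹ : SpecialLinearGroup (Fin 5) K).1 = Matrix.transvection a b (-c) := by
  have h : (SpecialLinearGroup.transvection hab c)⁻¹ = SpecialLinearGroup.transvection hab (-c) := by
    apply inv_eq_of_mul_eq_one_right
    apply Subtype.ext
    show Matrix.transvection a b c * Matrix.transvection a b (-c) = 1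
    rw [Matrix.transvection_mul_transvection_same _ _ hab, add_neg_cancel, Matrix.transvection_zero]
  rw [h]
  rfl

/-- **`SL₅` acts on its own Lie algebra by conjugation.** -/
theorem act (hO : Ok r s) {φ : SpecialLinearGroup (Fin 5) K →* ↥(chevE8.group K)}
    (hφ : ∀ a b (hab : a ≠ b) (c : K), (φ (SpecialLinearGroup.transvection hab c) : GL chevE8.Idx K) =
      xG inE8 (r a b) ((s a b : K) * c)) (A : SpecialLinearGroup (Fin 5) K) :
    ∀ M : Matrix (Fin 5) (Fin 5) K, M.trace = 0 → ((φ A : GL chevE8.Idx K) : Matrix chevE8.Idx chevE8.Idx K) *ᵥ io K r s M =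
      io K r s (A.1 * M * (A⁻¹).1) := by
  refine Cfsg.Agent.H238.E8.tv_ind (fun A => ∀ M : Matrix (Fin 5) (Fin 5) K, M.trace = 0 →
    ((φ A : GL chevE8.Idx K) : Matrix chevE8.Idx chevE8.Idx K) *ᵥ io K r s M = io K r s (A.1 * M * (A⁻¹).1)) ?_ ?_ A
  · intro a b hab c M hM
    rw [hφ, act_tv hO hab c M hM, tv_inv]
    rfl
  · intro A B hA hB M hM
    have h1 : (B.1 * M * (B⁻¹).1).trace = 0 := by
      rw [Matrix.trace_mul_comm, ← mul_assoc]
      have : (B⁻¹).1 * B.1 = 1 := congrArg Subtype.val (inv_mul_cancel B)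
      rw [this, one_mul, hM]
    have h2 : ((φ (A * B) : GL chevE8.Idx K) : Matrix chevE8.Idx chevE8.Idx K) =
        ((φ A : GL chevE8.Idx K) : Matrix chevE8.Idx chevE8.Idx K) * ((φ B : GL chevE8.Idx K) : Matrix chevE8.Idx chevE8.Idx K) := by
      rw [map_mul]
      rfl
    rw [h2, ← Matrix.mulVec_mulVec, hB M hM, hA _ h1]
    have h3 : (A * B).1 * M * ((A * B)⁻¹).1 = A.1 * (B.1 * M * (B⁻¹).1) * (A⁻¹).1 := by
      rw [_root_.mul_inv_rev]
      show A.1 * B.1 * M * ((B⁻¹).1 * (A⁻¹).1) = _
      simp only [mul_assoc]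
    rw [h3]

/-- **the other `SL₅` acts trivially** -/
theorem act_cross (hO : Ok r s) (hC : Cross r r') (hlt : ∀ i j, r' i j < 240)
    {φ : SpecialLinearGroup (Fin 5) K →* ↥(chevE8.group K)}
    (hφ : ∀ a b (hab : a ≠ b) (c : K), (φ (SpecialLinearGroup.transvection hab c) : GL chevE8.Idx K) =
      xG inE8 (r a b) ((s a b : K) * c)) (A : SpecialLinearGroup (Fin 5) K) :
    ∀ M : Matrix (Fin 5) (Fin 5) K, ((φ A : GL chevE8.Idx K) : Matrix chevE8.Idx chevE8.Idx K) *ᵥ io K r' s' M =
      io K r' s' M := by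
  refine Cfsg.Agent.H238.E8.tv_ind (fun A => ∀ M : Matrix (Fin 5) (Fin 5) K,
    ((φ A : GL chevE8.Idx K) : Matrix chevE8.Idx chevE8.Idx K) *ᵥ io K r' s' M = io K r' s' M) ?_ ?_ A
  · intro a b hab c M
    rw [hφ, io_apply, Matrix.mulVec_add, Matrix.mulVec_sum, Matrix.mulVec_sum]
    congr 1
    · refine Finset.sum_congr rfl fun i _ => ?_
      rw [Matrix.mulVec_sum]
      refine Finset.sum_congr rfl fun j _ => ?_
      rw [Matrix.mulVec_smul]
      by_cases h : i = j
      · rw [if_pos h, zero_smul, zero_smul]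
      · rw [x_zero (hO.lt _ _) (hlt _ _) (hC.ne a b hab i j h) (hC.ne' a b hab i j h) (hO.srt _ _) (hC.ch a b hab i j h)]
    · refine Finset.sum_congr rfl fun i _ => ?_
      rw [Matrix.mulVec_smul, x_hr _ (hO.lt _ _), hC.cz a b hab _ _ (Fin.castSucc_lt_succ).ne, Int.cast_zero, zero_mul,
        zero_smul, sub_zero]
  · intro A B hA hB M
    have h2 : ((φ (A * B) : GL chevE8.Idx K) : Matrix chevE8.Idx chevE8.Idx K) =
        ((φ A : GL chevE8.Idx K) : Matrix chevE8.Idx chevE8.Idx K) * ((φ B : GL chevE8.Idx K) : Matrix chevE8.Idx chevE8.Idx K) := by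
      rw [map_mul]
      rfl
    rw [h2, ← Matrix.mulVec_mulVec, hB M, hA M]

end Act

end Cfsg.Agent.H934.E83
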