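import Cfsg.Agent.H934.E83.Act

/-!
# Injectivity and the final form of box A of S5925 (helper934)

* `io1`, `io2`, `act11`, `act12`, `act21`, `act22` for helper238's `ph1`, `ph2`;
* `io1_inj`, `io2_inj`, `io_sum_inj` (characteristic `≠ 5`);
* `nat_act` : natural `SL₅`-submodules; `ph1_inj`, `ph2_inj` for every field;
* `central_of_eq` : `ph1 A = ph2 B` implies that `A`, `B` are central.
-/

set_option autoImplicit false

namespace Cfsg.Agent.H934.E83

open Cfsg Cfsg.Lie Cfsg.Agent.ChevalleyStructure Cfsg.Agent.ChevalleyStructure.Columns Cfsg.Agent.ChevalleyStructure.Elts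
open Cfsg.Agent.H238.E8
open Matrix

/-! ### The two embeddings -/

section Two

variable (K : Type*) [Field K]

/-- `sl₅ → L(E₈)`, first factor -/
noncomputable abbrev io1 : Matrix (Fin 5) (Fin 5) K →ₗ[K] (chevE8.Idx → K) := io K r1 s1

/-- `sl₅ → L(E₈)`, second factor -/
noncomputable abbrev io2 : Matrix (Fin 5) (Fin 5) K →ₗ[K] (chevE8.Idx → K) := io K r2 s2

variable {K}

theorem coe_ph1_tv {a b : Fin 5} (hab : a ≠ b) (c : K) : (ph1 K (SpecialLinearGroup.transvection hab c) : GL chevE8.Idx K) =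
    xG inE8 (r1 a b) ((s1 a b : K) * c) := by
  rw [ph1_tv]
  rfl

theorem coe_ph2_tv {a b : Fin 5} (hab : a ≠ b) (c : K) : (ph2 K (SpecialLinearGroup.transvection hab c) : GL chevE8.Idx K) =
    xG inE8 (r2 a b) ((s2 a b : K) * c) := by
  rw [ph2_tv]
  have h : ∀ a b, sg2 a b = s2 a b := by decide
  rw [h]
  rfl

theorem act11 (A : SpecialLinearGroup (Fin 5) K) {M : Matrix (Fin 5) (Fin 5) K} (hM : M.trace = 0) :
    ((ph1 K A : GL chevE8.Idx K) : Matrix chevE8.Idx chevE8.Idx K) *ᵥ io1 K M = io1 K (A.1 * M * (A⁻¹).1) :=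
  act ok1 (fun _ _ hab c => coe_ph1_tv hab c) A M hM

theorem act22 (A : SpecialLinearGroup (Fin 5) K) {M : Matrix (Fin 5) (Fin 5) K} (hM : M.trace = 0) :
    ((ph2 K A : GL chevE8.Idx K) : Matrix chevE8.Idx chevE8.Idx K) *ᵥ io2 K M = io2 K (A.1 * M * (A⁻¹).1) :=
  act ok2 (fun _ _ hab c => coe_ph2_tv hab c) A M hM

theorem act12 (A : SpecialLinearGroup (Fin 5) K) (M : Matrix (Fin 5) (Fin 5) K) :
    ((ph1 K A : GL chevE8.Idx K) : Matrix chevE8.Idx chevE8.Idx K) *ᵥ io2 K M = io2 K M :=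
  act_cross ok1 cross12 ok2.lt (fun _ _ hab c => coe_ph1_tv hab c) A M

theorem act21 (A : SpecialLinearGroup (Fin 5) K) (M : Matrix (Fin 5) (Fin 5) K) :
    ((ph2 K A : GL chevE8.Idx K) : Matrix chevE8.Idx chevE8.Idx K) *ᵥ io1 K M = io1 K M :=
  act_cross ok2 cross21 ok1.lt (fun _ _ hab c => coe_ph2_tv hab c) A M

end Two

section Eq

universe u

variable {K : Type u} [Field K]

theorem ph1_eq : ph1 K = p1 K := by
  refine hom_ext fun a b hab c => Subtype.ext ?_
  rw [coe_p1_tv, coe_ph1_tv]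

theorem ph2_eq : ph2 K = p2 K := by
  refine hom_ext fun a b hab c => Subtype.ext ?_
  rw [coe_p2_tv, coe_ph2_tv]
  show xG _ _ (((1 : ℤ) : K) * c) = _
  rw [Int.cast_one, one_mul]

end Eq

/-! ### Natural submodules -/

/-- a natural submodule -/
structure NatOk (r : Fin 5 → Fin 5 → ℕ) (s : Fin 5 → Fin 5 → ℤ) (w : Fin 5 → ℕ) (z : Fin 5 → ℤ) : Prop where
  lt : ∀ i, w i < 240
  inj : ∀ i j, w i = w j → i = j
  ne : ∀ a b, a ≠ b → ∀ i, w i ≠ r a b
  ne' : ∀ a b, a ≠ b → ∀ i, chevE8.negIdx.getD (r a b) 0 ≠ w i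
  sq : ∀ i, z i * z i = 1
  ch : ∀ a b, a ≠ b → chevE8.chainEntry (r a b) (w b) = [(w a, s a b * z a * z b)]
  ch0 : ∀ a b, a ≠ b → ∀ i, i ≠ b → chevE8.chainEntry (r a b) (w i) = []

/-- natural submodule of the first factor -/
def w1 : Fin 5 → ℕ := ![78, 56, 46, 40, 30]
/-- its signs -/
def z1 : Fin 5 → ℤ := ![1, 1, -1, 1, -1]
/-- natural submodule of the second factor -/
def w2 : Fin 5 → ℕ := ![4, 129, 128, 127, 126]
/-- its signs -/
def z2 : Fin 5 → ℤ := ![1, 1, 1, 1, 1]

theorem nok1 : NatOk r1 s1 w1 z1 where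
  lt := by decide +kernel
  inj := by decide +kernel
  ne := by decide +kernel
  ne' := by decide +kernel
  sq := by decide +kernel
  ch := by decide +kernel
  ch0 := by decide +kernel

theorem nok2 : NatOk r2 s2 w2 z2 where
  lt := by decide +kernel
  inj := by decide +kernel
  ne := by decide +kernel
  ne' := by decide +kernel
  sq := by decide +kernel
  ch := by decide +kernel
  ch0 := by decide +kernel

section NatMod

variable {K : Type*} [Field K] {r : Fin 5 → Fin 5 → ℕ} {s : Fin 5 → Fin 5 → ℤ} {w : Fin 5 → ℕ} {z : Fin 5 → ℤ}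

/-- the vector `∑ vᵢ zᵢ e_(w i)` -/
def nat (w : Fin 5 → ℕ) (z : Fin 5 → ℤ) (v : Fin 5 → K) : chevE8.Idx → K := ∑ i, (v i * (z i : K)) • er K (w i)

theorem nat_inr (hN : NatOk r s w z) (v : Fin 5 → K) (i : Fin 5) :
    nat w z v (Sum.inr ⟨w i, hN.lt i⟩) = v i * (z i : K) := by
  rw [nat, Finset.sum_apply, Finset.sum_eq_single i]
  · rw [Pi.smul_apply, er_inr, if_pos rfl, smul_eq_mul, mul_one]
  · intro j _ hj
    rw [Pi.smul_apply, er_inr, if_neg (fun h => hj (hN.inj i j h).symm), smul_zero]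
  · intro h
    exact absurd (Finset.mem_univ _) h

theorem nat_inj (hN : NatOk r s w z) {v v' : Fin 5 → K} (h : nat w z v = nat w z v') : v = v' := by
  funext i
  have h1 := congrFun h (Sum.inr ⟨w i, hN.lt i⟩)
  rw [nat_inr hN, nat_inr hN] at h1
  have h2 : (z i : K) * (z i : K) = 1 := by rw [← Int.cast_mul, hN.sq, Int.cast_one]
  have h3 : (z i : K) ≠ 0 := left_ne_zero_of_mul (h2 ▸ one_ne_zero)
  exact mul_right_cancel₀ h3 h1

theorem nat_act (hO : Ok r s) (hN : NatOk r s w z) {φ : SpecialLinearGroup (Fin 5) K →* ↥(chevE8.group K)}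
    (hφ : ∀ a b (hab : a ≠ b) (c : K), (φ (SpecialLinearGroup.transvection hab c) : GL chevE8.Idx K) =
      xG inE8 (r a b) ((s a b : K) * c)) (A : SpecialLinearGroup (Fin 5) K) :
    ∀ v : Fin 5 → K, ((φ A : GL chevE8.Idx K) : Matrix chevE8.Idx chevE8.Idx K) *ᵥ nat w z v = nat w z (A.1 *ᵥ v) := by
  refine tv_ind (fun A => ∀ v : Fin 5 → K,
    ((φ A : GL chevE8.Idx K) : Matrix chevE8.Idx chevE8.Idx K) *ᵥ nat w z v = nat w z (A.1 *ᵥ v)) ?_ ?_ A
  · intro a b hab c v
    have e1 : (SpecialLinearGroup.transvection hab c).1 *ᵥ v = v + Pi.single a (c * v b) := by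
      show Matrix.transvection a b c *ᵥ v = _
      rw [Matrix.transvection, Matrix.add_mulVec, Matrix.one_mulVec]
      congr 1
      funext i
      rw [Matrix.single_mulVec]
      rfl
    have e2 : nat w z (v + Pi.single a (c * v b)) = nat w z v + (c * v b * (z a : K)) • er K (w a) := by
      rw [nat, nat]
      simp_rw [Pi.add_apply, add_mul, add_smul, Finset.sum_add_distrib]
      congr 1
      rw [Finset.sum_eq_single a]
      · rw [Pi.single_eq_same]
      · intro j _ hj
        rw [Pi.single_eq_of_ne hj, zero_mul, zero_smul]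
      · intro h
        exact absurd (Finset.mem_univ _) h
    rw [e1, e2, hφ, nat, Matrix.mulVec_sum, ← Finset.add_sum_erase _ _ (Finset.mem_univ b),
      ← Finset.add_sum_erase _ (fun i => (v i * (z i : K)) • er K (w i)) (Finset.mem_univ b)]
    have e3 : ∀ i ∈ Finset.univ.erase b, ((xG inE8 (r a b) ((s a b : K) * c) : GL chevE8.Idx K) :
        Matrix chevE8.Idx chevE8.Idx K) *ᵥ ((v i * (z i : K)) • er K (w i)) = (v i * (z i : K)) • er K (w i) := by
      intro i hi
      rw [Matrix.mulVec_smul, x_zero (hO.lt _ _) (hN.lt _) (hN.ne a b hab i) (hN.ne' a b hab i) (hO.srt _ _)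
        (hN.ch0 a b hab i (Finset.ne_of_mem_erase hi))]
    rw [Finset.sum_congr rfl e3, Matrix.mulVec_smul, x_one (hO.lt _ _) (hN.lt _) (hN.ne a b hab b) (hN.ne' a b hab b)
      (hO.srt _ _) (hN.ch a b hab), smul_add, smul_smul]
    have e4 : (z b : K) * (z b : K) = 1 := by rw [← Int.cast_mul, hN.sq, Int.cast_one]
    have e5 := sgK (K := K) hO a b
    rw [show v b * (z b : K) * (((s a b * z a * z b : ℤ) : K) * ((s a b : K) * c)) = c * v b * (z a : K) by
      push_cast
      linear_combination v b * (s a b : K) ^ 2 * (z a : K) * c * e4 + v b * (z a : K) * c * e5]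
    abel
  · intro A B hA hB v
    have h2 : ((φ (A * B) : GL chevE8.Idx K) : Matrix chevE8.Idx chevE8.Idx K) =
        ((φ A : GL chevE8.Idx K) : Matrix chevE8.Idx chevE8.Idx K) * ((φ B : GL chevE8.Idx K) : Matrix chevE8.Idx chevE8.Idx K) := by
      rw [map_mul]
      rfl
    rw [h2, ← Matrix.mulVec_mulVec, hB v, hA _, Matrix.mulVec_mulVec]
    rfl

theorem hom_inj (hO : Ok r s) (hN : NatOk r s w z) {φ : SpecialLinearGroup (Fin 5) K →* ↥(chevE8.group K)}
    (hφ : ∀ a b (hab : a ≠ b) (c : K), (φ (SpecialLinearGroup.transvection hab c) : GL chevE8.Idx K) =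
      xG inE8 (r a b) ((s a b : K) * c)) : Function.Injective φ := by
  rw [injective_iff_map_eq_one]
  intro A hA
  have h1 : ∀ v : Fin 5 → K, A.1 *ᵥ v = v := by
    intro v
    apply nat_inj hN
    rw [← nat_act hO hN hφ A v, hA]
    exact Matrix.one_mulVec _
  apply Subtype.ext
  exact Matrix.ext_of_mulVec_single fun i => by
    rw [h1]
    exact (Matrix.one_mulVec _).symm

end NatMod

section Fin

variable {K : Type*} [Field K]

/-- **`ph1` is injective.** -/
theorem ph1_inj : Function.Injective (ph1 K) := hom_inj ok1 nok1 fun _ _ hab c => coe_ph1_tv hab c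

/-- **`ph2` is injective.** -/
theorem ph2_inj : Function.Injective (ph2 K) := hom_inj ok2 nok2 fun _ _ hab c => coe_ph2_tv hab c

theorem central_of_eq {A B : SpecialLinearGroup (Fin 5) K} (h : ph1 K A = ph2 K B) :
    A ∈ Subgroup.center (SpecialLinearGroup (Fin 5) K) ∧ B ∈ Subgroup.center (SpecialLinearGroup (Fin 5) K) := by
  constructor
  · rw [Subgroup.mem_center_iff]
    intro C
    apply ph1_inj
    rw [map_mul, map_mul, h]
    exact (ph_comm K C B).eq
  · rw [Subgroup.mem_center_iff]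
    intro C
    apply ph2_inj
    rw [map_mul, map_mul, ← h]
    exact (ph_comm K A C).symm.eq

theorem eq_one_of_eq {A B : SpecialLinearGroup (Fin 5) K} (hK : ∀ a : K, a ^ 5 = 1 → a = 1) (h : ph1 K A = ph2 K B) :
    A = 1 ∧ B = 1 := by
  have key : ∀ A : SpecialLinearGroup (Fin 5) K, A ∈ Subgroup.center (SpecialLinearGroup (Fin 5) K) → A = 1 := by
    intro A hA
    rw [Matrix.SpecialLinearGroup.mem_center_iff] at hA
    obtain ⟨a, ha, hA⟩ := hA
    have h1 := hK a (by simpa using ha)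
    apply Subtype.ext
    rw [← hA, h1]
    simp
  exact ⟨key A (central_of_eq h).1, key B (central_of_eq h).2⟩

theorem eq_one_of_eq_three {A B : SpecialLinearGroup (Fin 5) (ZMod 3)} (h : ph1 (ZMod 3) A = ph2 (ZMod 3) B) :
    A = 1 ∧ B = 1 := eq_one_of_eq (by decide) h

end Fin

end Cfsg.Agent.H934.E83
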