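import Cfsg.Agent.ChevalleyStructure.Columns
import Cfsg.Agent.ChevalleyStructure.Elts

/-!
# Root vectors of the adjoint module of `E₈` (S5925, box A, helper934)

* `er K s`, `hr K r` : the root vector `e_s` and the vector `h_r` of `chevE8.Idx → K`;
* `x_self`, `x_neg`, `x_one`, `x_zero`, `x_hr` : the action of `x_r(t)` on them.
-/

set_option autoImplicit false

namespace Cfsg.Agent.H934.E83

open Cfsg Cfsg.Lie Cfsg.Agent.ChevalleyStructure Cfsg.Agent.ChevalleyStructure.Columns Cfsg.Agent.ChevalleyStructure.Elts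
open Matrix

theorem inE8 : InList chevE8 := by simp

/-- `⟨r, u^∨⟩` -/
def cz (u r : ℕ) : ℤ := ∑ i : Fin 8, cor chevE8 u i.val * car chevE8 i.val r

section
variable (K : Type*) [Field K]

/-- the root vector `e_s` -/
def er (s : ℕ) : chevE8.Idx → K := fun v => dl K chevE8 v s

/-- the vector `h_r` -/
def hr (r : ℕ) : chevE8.Idx → K := fun v => ∑ i : Fin chevE8.rank, (cor chevE8 r i.val : K) * (if v = Sum.inl i then 1 else 0)

variable {K}

theorem er_eq {s : ℕ} (hs : s < 240) : er K s = Pi.single (Sum.inr ⟨s, hs⟩ : chevE8.Idx) (1 : K) := by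
  funext v
  rcases v with i | w
  · show (0 : K) = _
    rw [Pi.single_apply, if_neg (by simp)]
  · show (if w.val = s then (1 : K) else 0) = _
    rw [Pi.single_apply]
    by_cases h : w.val = s
    · rw [if_pos h, if_pos (congrArg Sum.inr (Fin.ext h))]
    · rw [if_neg h, if_neg (fun h' => h (by rw [Sum.inr.inj h']))]

theorem er_inl (s : ℕ) (i : Fin chevE8.rank) : er K s (Sum.inl i) = 0 := rfl

theorem er_inr (s : ℕ) (w : Fin chevE8.nroots) : er K s (Sum.inr w) = if w.val = s then 1 else 0 := rfl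

theorem hr_inl (r : ℕ) (i : Fin chevE8.rank) : hr K r (Sum.inl i) = (cor chevE8 r i.val : K) := by
  show ∑ j : Fin chevE8.rank, (cor chevE8 r j.val : K) * (if (Sum.inl i : chevE8.Idx) = Sum.inl j then 1 else 0) = _
  rw [Finset.sum_eq_single i]
  · rw [if_pos rfl, mul_one]
  · intro j _ hj
    rw [if_neg (fun h => hj (Sum.inl.inj h).symm), mul_zero]
  · intro h
    exact absurd (Finset.mem_univ _) h

theorem hr_inr (r : ℕ) (w : Fin chevE8.nroots) : hr K r (Sum.inr w) = 0 := by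
  show ∑ j : Fin chevE8.rank, (cor chevE8 r j.val : K) * (if (Sum.inr w : chevE8.Idx) = Sum.inl j then 1 else 0) = _
  exact Finset.sum_eq_zero fun j _ => by rw [if_neg (by simp), mul_zero]

theorem x_er {r s : ℕ} (hr : r < 240) (hs : s < 240) (t : K) (v : chevE8.Idx) :
    (((xG inE8 r t : GL chevE8.Idx K) : Matrix chevE8.Idx chevE8.Idx K) *ᵥ er K s) v =
      chevE8.xMat K ⟨r, hr⟩ t v (Sum.inr ⟨s, hs⟩) := by
  rw [coe_xG, x_of_lt (D := chevE8) hr, er_eq hs, Matrix.mulVec_single_one]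
  rfl

theorem x_self {r : ℕ} (hr : r < 240) (t : K) :
    ((xG inE8 r t : GL chevE8.Idx K) : Matrix chevE8.Idx chevE8.Idx K) *ᵥ er K r = er K r := by
  funext v
  refine (x_er hr hr t v).trans ?_
  refine (xMat_self chevE8 ⟨r, hr⟩ t v).trans ?_
  rfl

theorem x_neg {r s : ℕ} (hr' : r < 240) (hs : s < 240) (hsr : s ≠ r) (hn : chevE8.negIdx.getD r 0 = s) (t : K) :
    ((xG inE8 r t : GL chevE8.Idx K) : Matrix chevE8.Idx chevE8.Idx K) *ᵥ er K s =
      er K s + t • hr K r - t ^ 2 • er K r := by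
  funext v
  have h1 : (∑ i : Fin chevE8.rank, (cor chevE8 r i.val : K) * t * (if v = Sum.inl i then 1 else 0)) = t * hr K r v := by
    show _ = t * ∑ i : Fin chevE8.rank, (cor chevE8 r i.val : K) * (if v = Sum.inl i then 1 else 0)
    rw [Finset.mul_sum]
    exact Finset.sum_congr rfl fun i _ => by ring
  rw [x_er hr' hs, xMat_neg chevE8 ⟨r, hr'⟩ t v ⟨s, hs⟩ hn.symm (fun h => hsr (congrArg Fin.val h))]
  show dl K chevE8 v s + (∑ i : Fin chevE8.rank, (cor chevE8 r i.val : K) * t * (if v = Sum.inl i then 1 else 0)) -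
    t ^ 2 * dl K chevE8 v r = dl K chevE8 v s + t * hr K r v - t ^ 2 * dl K chevE8 v r
  rw [h1]

theorem x_one {r s u : ℕ} {c : ℤ} (hr : r < 240) (hs : s < 240) (hsr : s ≠ r) (hn : chevE8.negIdx.getD r 0 ≠ s)
    (hsort : sortedFrom 0 (row chevE8 r) = true) (hc : chevE8.chainEntry r s = [(u, c)]) (t : K) :
    ((xG inE8 r t : GL chevE8.Idx K) : Matrix chevE8.Idx chevE8.Idx K) *ᵥ er K s = er K s + ((c : K) * t) • er K u := by
  funext v
  rw [x_er hr hs, xMat_ne chevE8 ⟨r, hr⟩ t v ⟨s, hs⟩ (fun h => hn h.symm) (fun h => hsr (congrArg Fin.val h)) hsort]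
  show _ + chSum (dl K chevE8 v) t 1 (chevE8.chainEntry r s) = _
  rw [hc, chSum_cons, chSum_nil, pow_one, add_zero]
  rfl

theorem x_zero {r s : ℕ} (hr : r < 240) (hs : s < 240) (hsr : s ≠ r) (hn : chevE8.negIdx.getD r 0 ≠ s)
    (hsort : sortedFrom 0 (row chevE8 r) = true) (hc : chevE8.chainEntry r s = []) (t : K) :
    ((xG inE8 r t : GL chevE8.Idx K) : Matrix chevE8.Idx chevE8.Idx K) *ᵥ er K s = er K s := by
  funext v
  rw [x_er hr hs, xMat_ne chevE8 ⟨r, hr⟩ t v ⟨s, hs⟩ (fun h => hn h.symm) (fun h => hsr (congrArg Fin.val h)) hsort]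
  show _ + chSum (dl K chevE8 v) t 1 (chevE8.chainEntry r s) = _
  rw [hc, chSum_nil, add_zero]
  rfl

theorem x_hr {r : ℕ} (u : ℕ) (hr' : r < 240) (t : K) :
    ((xG inE8 r t : GL chevE8.Idx K) : Matrix chevE8.Idx chevE8.Idx K) *ᵥ hr K u =
      hr K u - ((cz u r : K) * t) • er K r := by
  have h1 : hr K u = ∑ i : Fin chevE8.rank, (cor chevE8 u i.val : K) • (Pi.single (Sum.inl i : chevE8.Idx) (1 : K)) := by
    funext v
    rw [Finset.sum_apply]
    refine Finset.sum_congr rfl fun i _ => ?_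
    rw [Pi.smul_apply, Pi.single_apply, smul_eq_mul]
  have h2 : ∀ i : Fin chevE8.rank, ((xG inE8 r t : GL chevE8.Idx K) : Matrix chevE8.Idx chevE8.Idx K) *ᵥ
      (Pi.single (Sum.inl i : chevE8.Idx) (1 : K) : chevE8.Idx → K) =
        (Pi.single (Sum.inl i : chevE8.Idx) (1 : K) : chevE8.Idx → K) - ((car chevE8 i.val r : K) * t) • er K r := by
    intro i
    rw [coe_xG, x_of_lt (D := chevE8) hr', Matrix.mulVec_single_one]
    funext v
    show chevE8.xMat K ⟨r, hr'⟩ t v (Sum.inl i) = _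
    rw [xMat_inl]
    show _ = (Pi.single (Sum.inl i : chevE8.Idx) (1 : K) : chevE8.Idx → K) v - _
    rw [Pi.single_apply]
    rfl
  rw [h1, Matrix.mulVec_sum]
  simp_rw [Matrix.mulVec_smul, h2, smul_sub, Finset.sum_sub_distrib]
  congr 1
  rw [cz, Int.cast_sum, Finset.sum_mul, Finset.sum_smul]
  refine Finset.sum_congr rfl fun i _ => ?_
  rw [smul_smul, Int.cast_mul]
  ring_nf

end

end Cfsg.Agent.H934.E83
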